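import Mathlib
import Cfsg.Agent.Og.A1

/-! Fusion: either `τ` is not fused out of `X` inside `C`, or the second parabolic exists. -/

set_option autoImplicit false
set_option linter.unusedSectionVars false
set_option linter.unusedSimpArgs false

namespace Cfsg.Agent.Og

open Cfsg.Agent.Loc.Mss Subgroup SG
open scoped commutatorElement

variable {K : Type*} [Field K] [CharP K 2] [Finite K] {s : Sg K} {G : Type*} [Group G]

namespace A2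

variable (s) in
def Bs : Subgroup (SG s) where
  carrier := {p | p.a1 = 0 ∧ p.a2 = 0 ∧ p.u2 = 0 ∧ p.a3 = 0 ∧ p.a4 = 0 ∧ p.a6 = 0 ∧ p.a8 = 0}
  mul_mem' := fun {p r} hp hr => by simp_all
  one_mem' := by simp
  inv_mem' := fun {p} hp => by simp_all

@[simp] theorem mem_Bs {p : SG s} : p ∈ Bs s ↔
    p.a1 = 0 ∧ p.a2 = 0 ∧ p.u2 = 0 ∧ p.a3 = 0 ∧ p.a4 = 0 ∧ p.a6 = 0 ∧ p.a8 = 0 := Iff.rfl

theorem g2_le : ⁅R3s s, R3s s⁆ ≤ Bs s := commutator_le.2 fun p hp r hr => by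
  simp_all [commutatorElement_def]
  grind

theorem g3_le : ⁅Bs s, R3s s⁆ ≤ V6s s := commutator_le.2 fun p hp r hr => by
  simp_all [commutatorElement_def]
  grind

theorem g3_le' {T : Subgroup (SG s)} (h : T ≤ R3s s) : ⁅⁅T, T⁆, T⁆ ≤ V6s s :=
  (commutator_mono ((commutator_mono h h).trans g2_le) h).trans g3_le

theorem comm_B {p : SG s} (hp : p ∈ Bs s) (h5 : p.a5 = 1) (h7 : p.a7 = 0) (h8 : p.u8 = 0) (b : K) :
    ⁅p, (w8 b 0 : SG s)⁆ = w6 0 b := by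
  ext <;> simp_all [commutatorElement_def] <;> grind

theorem T4_le : T4s s ≤ R3s s := fun _ hp => ⟨hp.1, hp.2.1, hp.2.2.1⟩
theorem T5_le : T5s s ≤ R3s s := fun _ hp => ⟨hp.1, hp.2.1, hp.2.2.1⟩

theorem g3_T4 : ⁅⁅T4s s, T4s s⁆, T4s s⁆ = V6s s := by
  refine le_antisymm (g3_le' T4_le) fun p hp => ?_
  obtain ⟨b, rfl⟩ := mem_V6s_iff.1 hp
  rw [← comm_B (p := ⁅(x3 1 : SG s), (w8 1 0 : SG s)⁆)
    (g2_le (commutator_mem_commutator (by simp) (by simp))) (by simp [commutatorElement_def])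
    (by simp [commutatorElement_def]) (by simp [commutatorElement_def]; grind) b]
  exact commutator_mem_commutator (commutator_mem_commutator (by simp) (by simp)) (by simp)

theorem g3_T5 : ⁅⁅T5s s, T5s s⁆, T5s s⁆ = V6s s := by
  refine le_antisymm (g3_le' T5_le) fun p hp => ?_
  obtain ⟨b, rfl⟩ := mem_V6s_iff.1 hp
  rw [← comm_B (p := ⁅(w4 1 0 : SG s), (w6 1 0 : SG s)⁆)
    (g2_le (commutator_mem_commutator (by simp) (by simp))) (by simp [commutatorElement_def])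
    (by simp [commutatorElement_def]) (by simp [commutatorElement_def]) b]
  exact commutator_mem_commutator (commutator_mem_commutator (by simp) (by simp)) (by simp)

theorem z_T4 {z : SG s} (hz : z ∈ T4s s) (hc : ∀ t ∈ T4s s, t * z = z * t) :
    ⁅(w4 1 0 : SG s), z⁆ ∈ V6s s := by
  have e := hc (x3 1) (by simp)
  have e1 := congrArg SG.a5 e
  have e2 := congrArg SG.u4 e
  clear hc e
  simp_all [commutatorElement_def]
  grind

theorem z_T5 {z : SG s} (hz : z ∈ T5s s) (hc : ∀ t ∈ T5s s, t * z = z * t) :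
    ⁅(x3 1 : SG s), z⁆ ∈ V6s s := by
  have e1 := congrArg SG.a5 (hc (w4 1 0) (by simp))
  have e2 := congrArg SG.a7 (hc (w6 1 0) (by simp))
  clear hc
  simp_all [commutatorElement_def]
  grind

theorem conj_x1 {f : K} (hf : f ≠ 0) (e a : K) :
    (x1 (a / f) * (w4 0 e * w6 0 f) * (x1 (a / f))⁻¹ : SG s) = w4 0 e * w6 0 f * w4 0 a := by
  ext <;> simp <;> grind

variable [Finite G] {L : Lt s G}

theorem key (h : St L) (h2 : ¬ IsConj L.τ (L.u (w6 0 1)))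
    (hcard : ∀ d ∈ L.C, IsConj L.τ d → d ∉ L.X → Nat.card ↥(L.C ⊓ 𝐂₁[d]) = Nat.card K ^ 8)
    {T : Subgroup (SG s)} (hT : Nat.card T = Nat.card K ^ 8) {y : G} (hy : y ∈ 𝐍[L.im T])
    (hn : y ∉ 𝐍[L.X]) {y0 : SG s} (h0 : y0 ∉ T) (hτ : w4 0 1 ∈ T) (hE : ⁅⁅T, T⁆, T⁆ = V6s s)
    (hZ : ∀ z ∈ T, (∀ t ∈ T, t * z = z * t) → ⁅y0, z⁆ ∈ V6s s) : False := by
  have hc : ∀ g ∈ L.im T, g * (y⁻¹ * L.τ * y) = y⁻¹ * L.τ * y * g := fun g hg => by
    have e := mem_c1.1 (h.toOC.toRC.C_le_cent_τ (L.im_le_C T (conj_mem_of_norm hy hg)))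
    calc g * (y⁻¹ * L.τ * y) = y⁻¹ * (y * g * y⁻¹ * L.τ) * y := by group
      _ = _ := by rw [e]; group
  obtain ⟨z, hz, ez⟩ := conj_mem_of_norm' hy (Lt.u_mem_im (L := L) hτ)
  change L.u z = y⁻¹ * L.τ * y at ez
  have h1 : L.u ⁅y0, z⁆ ∈ L.V6 := Lt.u_mem_im (hZ z hz fun t ht => h.toOC.u_inj.1 (by
    rw [map_mul, map_mul, ez]; exact hc _ (Lt.u_mem_im ht)))
  have hy6 : y ∈ 𝐍[L.V6] := by
    have := A1.norm_im (A1.norm_im (le_refl 𝐍[L.im T]) le_rfl) le_rfl hy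
    rwa [hE] at this
  obtain ⟨p, hp, ep⟩ := conj_mem_of_norm hy6 h1
  obtain ⟨b, rfl⟩ := mem_V6s_iff.1 hp
  have e3 : y * L.u y0 * y⁻¹ * L.τ * (y * L.u y0 * y⁻¹)⁻¹ = L.u (w6 0 b * w4 0 1) := by
    rw [map_mul, ep, map_commutatorElement, ez, commutatorElement_def]
    change _ = _ * L.τ
    group
  by_cases hb : b = 0
  · subst hb
    have e4 : L.u y0 * (y⁻¹ * L.τ * y) = y⁻¹ * L.τ * y * L.u y0 := by
      have e5 : (w6 0 0 : SG s) = 1 := rfl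
      rw [e5, map_one, eq_comm, conj_eq_one_iff, map_commutatorElement, ez] at ep
      exact commutatorElement_eq_one_iff_mul_comm.1 ep
    have hX : y⁻¹ * L.τ * y ∉ L.X := fun hx => hn (h.norm_X ▸ (inv_mem_iff.1
      (h.mem_norm_C (g := y⁻¹) (by rwa [inv_inv]))))
    have hle : L.im T ≤ L.C ⊓ 𝐂₁[y⁻¹ * L.τ * y] :=
      fun g hg => ⟨L.im_le_C T hg, mem_c1.2 (hc g hg)⟩
    have e6 := eq_of_le_of_card_ge hle (by
      rw [hcard _ (ez ▸ L.u_mem_C z) (isConj_iff.2 ⟨y⁻¹, by rw [inv_inv]⟩) hX, h.toOC.card_im, hT])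
    exact h0 (h.toOC.u_mem_im.1 (e6 ▸ ⟨L.u_mem_C y0, mem_c1.2 e4⟩))
  · obtain ⟨c, -, ec⟩ := h.toOC.toRC.conj_Z (g := L.u (w6 0 b * w4 0 1)) (Lt.u_mem_im (by simp))
      (by rw [h.toOC.u_mem_im]; simp [hb])
    exact h2 ((isConj_iff.2 ⟨_, e3⟩).trans (isConj_iff.2 ⟨c, ec⟩))

end A2

variable [Finite G] {L : Lt s G}

theorem St.st2_of_mv (h : St L) (mv : ¬ 𝐍[L.R] ≤ 𝐍[L.X]) : St2 L := by
  refine ⟨h, fun a ha => ?_, mv⟩
  obtain ⟨g, hg, hn⟩ := SetLike.not_le_iff_exists.1 mv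
  have hZ := h.toOC.norm_R_le hg
  have hXZ : L.X ≤ L.Z := Lt.im_mono fun p hp => by simp_all
  have h1 : g * L.τ * g⁻¹ ∈ L.Z := conj_mem_of_norm hZ (hXZ L.τ_mem_X)
  have h2 : g * L.τ * g⁻¹ ∉ L.X := fun hx => hn (h.norm_X ▸ h.mem_norm_C hx)
  have hx : L.u (w4 0 a) ∈ L.X := Lt.u_mem_im (by simp)
  have h3 : g * L.u (w4 0 a) * g⁻¹ ∈ L.Z := conj_mem_of_norm hZ (hXZ hx)
  by_cases h4 : g * L.u (w4 0 a) * g⁻¹ ∈ L.X
  · exfalso
    obtain ⟨p, hp, ep⟩ := h4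
    obtain ⟨a', rfl⟩ := mem_Xs_iff.1 hp
    obtain ⟨p, hp', ep'⟩ := h1
    obtain ⟨e, f, rfl⟩ := mem_Zs_iff.1 hp'
    have hf : f ≠ 0 := by
      rintro rfl
      exact h2 (ep' ▸ Lt.u_mem_im (by simp))
    have h' := h.cjg g
    have e1 : L.u (x1 (a' / f)) * (g * L.τ * g⁻¹) * (L.u (x1 (a' / f)))⁻¹ =
        g * (L.τ * L.u (w4 0 a)) * g⁻¹ := by
      rw [← conj_mul (b := g), ← ep, ← ep', ← map_inv, ← map_mul, ← map_mul, ← map_mul, A2.conj_x1 hf]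
    have h5 : L.u (x1 (a' / f)) ∈ (L.cjg g).C := h'.mem_C_of_pow (h'.mem_norm_C (by
      rw [Lt.cjg_τ, e1]; exact (L.cjg_im g _).ge (conj_mem_cj (mul_mem L.τ_mem_X hx)))) (k := 1) (by
      rw [← map_pow, show (x1 (a' / f) : SG s) ^ 2 ^ 1 = 1 by
        rw [pow_one, pow_two]; ext <;> simp <;> grind, map_one])
    have e2 := mem_c1.1 (h'.toOC.toRC.C_le_cent_τ h5)
    rw [Lt.cjg_τ] at e2
    rw [e2, mul_inv_cancel_right, mul_left_inj, mul_right_inj, left_eq_mul, ← map_one L.u,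
      h.toOC.u_inj] at e1
    exact ha (congrArg SG.u4 e1)
  · obtain ⟨c, -, ec⟩ := h.toOC.toRC.conj_Z h1 h2
    obtain ⟨c', -, ec'⟩ := h.toOC.toRC.conj_Z h3 h4
    exact ((isConj_iff.2 ⟨g, rfl⟩).trans (isConj_iff.2 ⟨c, ec⟩)).trans
      ((isConj_iff.2 ⟨g, rfl⟩).trans (isConj_iff.2 ⟨c', ec'⟩)).symm

theorem St.A2 (h : St L) : (∀ d ∈ L.C, IsConj L.τ d → d ∈ L.X) ∨ St2 L := by
  by_cases h2 : IsConj L.τ (L.u (w6 0 1))
  · obtain ⟨y, hy, hn⟩ := h.exists_mover (L.u_mem_C _) (by rw [h.toOC.u_mem_im]; simp) h2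
    rw [h.toOC.cent2] at hy
    exact .inr (h.st2_of_mv fun hle => hn (hle hy))
  refine .inl fun d hd hc => by_contra fun hX => ?_
  have rep : ∀ d ∈ L.C, IsConj L.τ d → d ∉ L.X → ∃ c ∈ L.C, c * d * c⁻¹ = L.u (x7 1) ∨
      ∃ e, c * d * c⁻¹ = L.u (w4 0 e * w8 0 1) := fun d hd hc hX => by
    obtain ⟨c, hc', e | e | e⟩ := h.toOC.conj_inv hd (A1.sq_of_isConj h.toOC hc) hX
    · exact (h2 (hc.trans (isConj_iff.2 ⟨c, e⟩))).elim
    · exact (h.A1 (hc.trans (isConj_iff.2 ⟨c, e⟩))).elim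
    · exact ⟨c, hc', e⟩
  have hcard : ∀ d ∈ L.C, IsConj L.τ d → d ∉ L.X →
      Nat.card ↥(L.C ⊓ 𝐂₁[d]) = Nat.card K ^ 8 := fun d hd hc hX => by
    obtain ⟨c, hc', e⟩ := rep d hd hc hX
    have e1 : cj(c, L.C ⊓ 𝐂₁[d]) = L.C ⊓ 𝐂₁[c * d * c⁻¹] := by
      rw [cj_inf, cj_of_mem hc']
      congr 1
      ext g
      rw [mem_cj, mem_c1, mem_c1]
      constructor
      · intro e
        calc g * (c * d * c⁻¹) = c * (c⁻¹ * g * c * d) * c⁻¹ := by group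
          _ = _ := by rw [e]; group
      · intro e
        calc c⁻¹ * g * c * d = c⁻¹ * (g * (c * d * c⁻¹)) * c := by group
          _ = _ := by rw [e]; group
    rw [← card_cj _ c, e1]
    rcases e with e | ⟨e, e'⟩
    · rw [e, h.toOC.cent4, h.toOC.card_im, card_T4s]
    · rw [e', h.toOC.cent5, h.toOC.card_im, card_T5s]
  obtain ⟨c, -, e | ⟨e, e'⟩⟩ := rep d hd hc hX
  · obtain ⟨y, hy, hn⟩ := h.exists_mover (L.u_mem_C _) (by rw [h.toOC.u_mem_im]; simp)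
      (hc.trans (isConj_iff.2 ⟨c, e⟩))
    rw [h.toOC.cent4] at hy
    exact A2.key h h2 hcard card_T4s hy hn (y0 := w4 1 0) (by simp) (by simp) A2.g3_T4
      fun z => A2.z_T4
  · obtain ⟨y, hy, hn⟩ := h.exists_mover (L.u_mem_C _) (by rw [h.toOC.u_mem_im]; simp)
      (hc.trans (isConj_iff.2 ⟨c, e'⟩))
    rw [h.toOC.cent5] at hy
    exact A2.key h h2 hcard card_T5s hy hn (y0 := x3 1) (by simp) (by simp) A2.g3_T5
      fun z => A2.z_T5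

end Cfsg.Agent.Og
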