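import Mathlib
import Cfsg.Agent.Og.B
import Cfsg.Agent.Og.BN

/-! The braid relation. -/

set_option autoImplicit false
set_option linter.unusedSectionVars false

namespace Cfsg.Agent.Og

open Cfsg.Agent.Loc.Mss Subgroup SG
open scoped commutatorElement Pointwise

variable {K : Type*} [Field K] [CharP K 2] [Finite K] {s : Sg K} {G : Type*} [Group G] [Finite G] {F : Ft s G}

theorem dihedral_odd {Γ : Type*} [Group Γ] {a b : Γ} (aa : a * a = 1) (bb : b * b = 1) {k : ℕ}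
    (h : (a * b) ^ (2 * k + 1) = 1) : ∃ i : ℕ, (a * b) ^ i * a * ((a * b) ^ i)⁻¹ * a *
      ((a * b) ^ i * a * ((a * b) ^ i)⁻¹) = b := by
  have ai : a⁻¹ = a := inv_eq_of_mul_eq_one_right aa
  have bi : b⁻¹ = b := inv_eq_of_mul_eq_one_right bb
  have e : ∀ i : ℕ, a * ((a * b) ^ i)⁻¹ = (a * b) ^ i * a := fun i => by
    have : SemiconjBy a (a * b)⁻¹ (a * b) := by simp [SemiconjBy, ai, bi, mul_assoc]
    rw [← inv_pow]; exact this.pow_right i
  refine ⟨k ^ 2 + k, ?_⟩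
  rw [mul_assoc (_ ^ _) a, e, mul_assoc, mul_assoc, mul_assoc, ← mul_assoc a a, aa, one_mul, ← mul_assoc, ← mul_assoc,
    ← mul_assoc, ← pow_add, ← pow_add, ← pow_add, ← mul_left_inj b, bb, mul_assoc, ← pow_succ,
    show k ^ 2 + k + (k ^ 2 + k) + (k ^ 2 + k) + (k ^ 2 + k) + 1 = (2 * k + 1) * (2 * k + 1) by ring, pow_mul, h,
    one_pow]

/-- The weight on `X`. -/
def Sg.lam (s : Sg K) : Kˣ × Kˣ →* Kˣ where
  toFun x := x.1 ^ 2 * s.σu x.1 * x.2 ^ 3 * s.σu x.2 ^ 2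
  map_one' := by simp
  map_mul' x y := by simp [mul_pow, mul_comm, mul_left_comm, mul_assoc]

theorem Sg.lam_apply (s : Sg K) (α β : Kˣ) : s.lam (α, β) = α ^ 2 * s.σu α * β ^ 3 * s.σu β ^ 2 := rfl

theorem Sg.exists_hT (s : Sg K) {x : Kˣ × Kˣ} (h : s.lam x = 1) : ∃ c, x = s.hT c := by
  obtain ⟨α, β⟩ := x
  obtain ⟨c, rfl⟩ := Finite.surjective_of_injective s.σu_inj β
  refine ⟨c, Prod.ext (eq_inv_of_mul_eq_one_left (s.eq_one_of_wt' 2 1 (by norm_num) ?_)) rfl⟩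
  have := congrArg Units.val h
  simp only [Sg.lam_apply, Units.val_mul, Units.val_pow_eq_pow_val, Sg.coe_σu, Sg.sq, map_mul,
    Units.val_one] at this ⊢
  linear_combination this

namespace RF0

theorem t_X (h : RF0 F) (x : Kˣ × Kˣ) (e : K) :
    F.t x * F.lt.u (zv e 0) * (F.t x)⁻¹ = F.lt.u (zv (s.lam x * e) 0) := by
  rw [(h.acts x.1 x.2).zv, mul_zero]; simp [Sg.lam]

/-- The longest element inverts the torus. -/
theorem w0_t (h : RF0 F) (x : Kˣ × Kˣ) : (F.n * F.m) ^ 4 * F.t x * (F.m * F.n) ^ 4 = F.t x⁻¹ := by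
  obtain ⟨α, β⟩ := x
  have e : ∀ y : G, (F.n * F.m) ^ 4 * y * (F.m * F.n) ^ 4 = F.n * (F.m * (F.n * (F.m * (F.n * (F.m * (F.n *
      (F.m * y * F.m) * F.n) * F.m) * F.n) * F.m) * F.n) * F.m) * F.n := fun y => by
    simp only [pow_succ, pow_zero, one_mul, mul_assoc]
  rw [e]
  simp only [h.mt, h.nt]
  have h1 : s.σ (α : K) ≠ 0 := by simp
  have h2 : s.σ (β : K) ≠ 0 := by simp
  congr 1
  ext <;> simp <;> field_simp

variable (h : RF0 F) (h2 : St2 F.lt) (hq : ∃ c : Kˣ, c ≠ 1)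
include h h2 hq

theorem stab {g : G} (hg : g ∈ 𝐂[F.lt.H1]) (hX : g ∈ 𝐍[F.lt.X]) :
    ∃ a v x, g = F.lt.u (w4 a v) * F.t x := by
  obtain ⟨a, v, _, ⟨x, rfl⟩, e⟩ := h2.toSt.cent_H1 hq F.H1_le_H (fun α β => ⟨_, F.t_mem_H _, h.acts α β⟩)
    (h2.toSt.norm_X ▸ hX) hg
  exact ⟨a, v, x, e⟩

theorem inv_mem_X {g : G} (hg : g ∈ 𝐂[F.lt.H1]) (hX : g ∈ 𝐍[F.lt.X]) (gg : g * g = 1) : g ∈ F.lt.X := by
  obtain ⟨a, v, ⟨α, β⟩, rfl⟩ := h.stab h2 hq hg hX
  have h1 := h2.toSt.mem_C_of_pow (h2.toSt.norm_X ▸ hX) (k := 1) (by rw [pow_one, pow_two, gg])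
  have h3 : F.t (α, β) * F.t (α, β) ∈ F.lt.S := by
    have : F.t (α, β) * F.t (α, β) =
        (F.lt.u (w4 a v) * (F.t (α, β) * F.lt.u (w4 a v) * (F.t (α, β))⁻¹))⁻¹ := by
      rw [eq_inv_iff_mul_eq_one, ← mul_left_inj (F.t (α, β) * F.t (α, β)), one_mul]
      calc _ = F.t (α, β) * F.t (α, β) * (F.lt.u (w4 a v) * F.t (α, β) * (F.lt.u (w4 a v) * F.t (α, β))) := by
            group
        _ = _ := by rw [gg, mul_one]
    rw [this, (h.acts α β).u]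
    exact inv_mem (mul_mem (Lt.u_mem_S _ _) (Lt.u_mem_S _ _))
  obtain ⟨k, hk⟩ := pg_iff.mp h2.toRC.pg_S _ h3
  rw [← pow_two, ← pow_mul, ← pow_succ', ← map_pow, ← map_one F.t] at hk
  have h4 := h.t_inj h2.inj hk
  have h5 : ∀ c : Kˣ, ∀ k, c ^ 2 ^ k = 1 → c = 1 := fun c k => by
    induction k with
    | zero => simp
    | succ k ih => intro e; rw [pow_succ, pow_mul] at e; exact ih (Sg.eq_one_of_sq e)
  have h6 : F.t (α, β) = 1 := by
    rw [h5 α _ (congrArg Prod.fst h4), h5 β _ (congrArg Prod.snd h4)]; exact map_one _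
  rw [h6, mul_one] at gg ⊢
  rw [← map_mul, ← map_one F.lt.u, h2.toOC.u_inj] at gg
  have : a = 0 := by simpa [CharTwo.add_self_eq_zero] using congrArg SG.u4 gg
  exact Lt.u_mem_im (by simp [this])

omit h2 hq in
theorem w4_mem (a v : K) : F.lt.u (w4 a v) ∈ 𝐂[F.lt.H1] := mem_cent.mpr <| by
  rintro _ ⟨c, rfl⟩
  have := h.rc.hu c (w4 a v)
  rw [show dh (c : K) ((c⁻¹ : Kˣ) : K) (w4 a v : SG s) = w4 a v by ext <;> simp] at this
  exact mul_inv_eq_iff_eq_mul.mp this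

omit h h2 hq in
theorem t_mem (x : Kˣ × Kˣ) : F.t x ∈ 𝐂[F.lt.H1] := mem_cent.mpr <| by
  rintro _ ⟨c, rfl⟩
  change F.t _ * F.t x = F.t x * F.t _
  rw [← map_mul, ← map_mul, mul_comm]

theorem inv_mem_cj {g d : G} (hd : d ∈ 𝐂[F.lt.H1]) (hg : g ∈ 𝐂[F.lt.H1]) (hX : g ∈ 𝐍[cj(d, F.lt.X)])
    (gg : g * g = 1) : g ∈ cj(d, F.lt.X) := by
  rw [← cj_norm, mem_cj] at hX
  refine mem_cj.mpr (h.inv_mem_X h2 hq (mul_mem (mul_mem (inv_mem hd) hg) hd) hX ?_)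
  calc _ = d⁻¹ * (g * g) * d := by group
    _ = 1 := by simp [gg]

/-- The stabilizer of two points fixed by the torus. -/
theorem stab2 {g d : G} (hd : d ∈ 𝐂[F.lt.H1]) (hne : cj(d, F.lt.X) ≠ F.lt.X) (hH : F.H ≤ 𝐍[cj(d, F.lt.X)])
    (hg : g ∈ 𝐂[F.lt.H1]) (hX : g ∈ 𝐍[F.lt.X]) (hX' : g ∈ 𝐍[cj(d, F.lt.X)]) : g ∈ F.H := by
  obtain ⟨a, v, x, rfl⟩ := h.stab h2 hq hg hX
  rw [Subgroup.mul_mem_cancel_right _ (hH (F.t_mem_H x))] at hX'
  have h0 : ∀ e, F.lt.u (w4 0 e) ∈ 𝐍[cj(d, F.lt.X)] → e = 0 := fun e he => by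
    by_contra h1
    refine hne ((h2.ti2 (b := 1) (h.inv_mem_cj h2 hq hd (h.w4_mem 0 e) he ?_) (by
      rw [cj_one]; exact Lt.u_mem_im (by simp)) fun e' => h1 ?_).trans (cj_one _))
    · rw [← map_mul, ← map_one F.lt.u]; congr 1; ext <;> simp [CharTwo.add_self_eq_zero]
    · exact congrArg SG.u4 (h2.inj (e'.trans (map_one _).symm))
  have h1 : a = 0 := by
    have := mul_mem hX' hX'
    rw [← map_mul, show (w4 a v * w4 a v : SG s) = w4 0 (a * s.σ a) by ext <;> simp <;> grind] at this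
    simpa using h0 _ this
  subst h1
  rw [h0 v hX', show (w4 0 0 : SG s) = 1 from rfl, map_one, one_mul]
  exact F.t_mem_H x

theorem lam_eq {g : G} (hg : g ∈ 𝐂[F.lt.H1]) (hX : g ∈ 𝐍[F.lt.X]) {x y : Kˣ × Kˣ}
    (e : g * F.t x * g⁻¹ = F.t y) : s.lam y = s.lam x := by
  obtain ⟨a, v, z, rfl⟩ := h.stab h2 hq hg hX
  have c : ∀ e, F.lt.u (w4 a v) * F.lt.u (zv e 0) * (F.lt.u (w4 a v))⁻¹ = F.lt.u (zv e 0) := fun e => by
    rw [mul_inv_eq_iff_eq_mul, ← map_mul, ← map_mul, zv_w4, w4_comm]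
  have h1 := h.t_X y 1
  have h3 : F.t z * F.t x * (F.t z)⁻¹ = F.t x := by rw [← map_inv, ← map_mul, ← map_mul, mul_inv_cancel_comm]
  rw [← e, ← c 1, show ∀ u t r p : G, u * t * r * (u * t)⁻¹ * (u * p * u⁻¹) * (u * t * r * (u * t)⁻¹)⁻¹ =
    u * ((t * r * t⁻¹) * p * (t * r * t⁻¹)⁻¹) * u⁻¹ from fun _ _ _ _ => by group, h3, h.t_X, c, h2.toOC.u_inj,
    zv_inj] at h1
  exact Units.ext (by simpa using h1.1.symm)

theorem lam_inv {v d : G} (hd : d ∈ 𝐂[F.lt.H1]) (hv : v ∈ cj(d, F.lt.X)) (h1 : v ≠ 1) (vv : v * v = 1)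
    {x y : Kˣ × Kˣ} (e : v * F.t x * v = F.t y) : s.lam y = (s.lam x)⁻¹ := by
  have c : v * F.t (y * x) = F.t (y * x) * v := by
    conv_rhs => rw [mul_comm y x]
    rw [map_mul, map_mul, ← e]
    have c' : F.t x * F.t y = F.t y * F.t x := by rw [← map_mul, ← map_mul, mul_comm]
    rw [← e] at c'
    calc _ = (v * v) * F.t x * v * F.t x := by group
      _ = F.t x * v * F.t x * (v * v) := by
        rw [vv, one_mul, mul_one]
      _ = _ := by group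
  rw [mem_cj] at hv
  have h3 : d⁻¹ * F.t (y * x) * d * (d⁻¹ * v * d) * (d⁻¹ * F.t (y * x) * d)⁻¹ = d⁻¹ * v * d := by
    calc _ = d⁻¹ * (F.t (y * x) * v) * (F.t (y * x))⁻¹ * d := by group
      _ = _ := by rw [← c]; group
  have h4 : d⁻¹ * v * d ≠ 1 := by simpa [mul_eq_one_iff_eq_inv, mul_assoc] using h1
  obtain ⟨a, w, z, e1⟩ := h.stab h2 hq (mul_mem (mul_mem (inv_mem hd) (t_mem (y * x))) hd)
    (h2.ti hv h4 (h3.symm ▸ hv))
  obtain ⟨b, hb⟩ := Lt.mem_X.mp hv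
  have hb0 : b ≠ 0 := by rintro rfl; exact h4 (hb.trans (map_one _))
  rw [hb, e1, show ∀ u t p : G, u * t * p * (u * t)⁻¹ = u * (t * p * t⁻¹) * u⁻¹ from fun _ _ _ => by group,
    h.t_X, mul_inv_eq_iff_eq_mul, ← map_mul, ← map_mul, zv_w4, w4_comm, h2.toOC.u_inj, mul_left_inj] at h3
  have h5 : s.lam z = 1 := Units.ext (mul_right_cancel₀ hb0 ((congrArg SG.u4 h3).trans (one_mul b).symm))
  obtain ⟨c, rfl⟩ := s.exists_hT h5
  have hN : ∀ r : Kˣ × Kˣ, F.t r ^ Nat.card Kˣ = 1 := fun r => by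
    rw [← map_pow, show r ^ Nat.card Kˣ = 1 from Prod.ext pow_card_eq_one' pow_card_eq_one', map_one]
  have h6 : F.lt.u (w4 a w) ^ Nat.card Kˣ = 1 := by
    have c1 : Commute (F.lt.u (w4 a w)) (F.t (s.hT c)) := (mem_cent.mp (h.w4_mem a w) _ ⟨c, rfl⟩).symm
    have := c1.mul_pow (Nat.card Kˣ)
    rw [hN, mul_one, ← e1] at this
    rw [← this]
    have := conj_pow (a := d⁻¹) (b := F.t (y * x)) (i := Nat.card Kˣ)
    rw [inv_inv] at this
    rw [this, hN]; simp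
  obtain ⟨k, hk⟩ := pg_iff.mp h2.toRC.pg_S _ (F.lt.u_mem_S (w4 a w))
  have h7 : F.lt.u (w4 a w) = 1 := by
    have := pow_gcd_eq_one.mpr ⟨hk, h6⟩
    rwa [((Nat.coprime_two_left.mpr Sg.odd_card_units).pow_left k).gcd_eq_one, pow_one] at this
  rw [h7, one_mul] at e1
  have h8 : F.t (y * x) = F.t (s.hT c) := by
    calc _ = d * (d⁻¹ * F.t (y * x) * d) * d⁻¹ := by group
      _ = _ := by rw [e1, ← mem_cent.mp hd (F.t (s.hT c)) ⟨c, rfl⟩, mul_inv_cancel_right]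
  rw [eq_inv_iff_mul_eq_one, ← map_mul, h.t_inj h2.inj h8, h5]

/-- The braid relation. -/
theorem rf : RF F := by
  have nn : F.n * F.n = 1 := h.rc.nn
  have ni : F.n⁻¹ = F.n := h.rc.n_inv
  have mi : F.m⁻¹ = F.m := inv_eq_of_mul_eq_one_right h.mm
  have f1 : ∀ x, F.n * (F.n * x) = x := fun x => by rw [← mul_assoc, nn, one_mul]
  have f2 : ∀ x, F.m * (F.m * x) = x := fun x => by rw [← mul_assoc, h.mm, one_mul]
  set r := F.n * (F.n * F.m) ^ 4 with hr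
  set r' := (F.n * F.m) ^ 4 * F.n with hr'
  have rr : r * r = 1 := by simp only [hr, pow_succ, pow_zero, one_mul, mul_assoc, f1, f2, h.mm]
  have rr' : r' * r' = 1 := by simp only [hr', pow_succ, pow_zero, one_mul, mul_assoc, f1, f2, nn]
  have ri : r⁻¹ = r := inv_eq_of_mul_eq_one_right rr
  have ri' : r'⁻¹ = r' := inv_eq_of_mul_eq_one_right rr'
  have rt : ∀ α β, r * F.t (α, β) * r = F.t ((α * β ^ 2 * s.σu β)⁻¹, β) := fun α β => by
    have := congrArg (fun y => F.n * y * F.n) (h.w0_t (α, β))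
    simp only [Prod.inv_mk, h.nt] at this
    rw [show ((α * β ^ 2 * s.σu β)⁻¹, β) = (α⁻¹ * β⁻¹ ^ 2 * s.σu β⁻¹, β⁻¹⁻¹) by
      simp [mul_comm, mul_left_comm], ← this]
    simp only [hr, pow_succ, pow_zero, one_mul, mul_assoc, f1, nn, mul_one]
  have rt' : ∀ α β, r' * F.t (α, β) * r' = F.t ((α * β ^ 2 * s.σu β)⁻¹, β) := fun α β => by
    have := h.w0_t (α * β ^ 2 * s.σu β, β⁻¹)
    rw [Prod.inv_mk, inv_inv, ← h.nt] at this
    rw [← this]
    simp only [hr', pow_succ, pow_zero, one_mul, mul_assoc, f1, nn, mul_one]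
  have la : ∀ α β, s.lam ((α * β ^ 2 * s.σu β)⁻¹, β) = (s.lam (α, β))⁻¹ := fun α β => by
    have h1 : s.σ (α : K) ≠ 0 := by simp
    have h2 : s.σ (β : K) ≠ 0 := by simp
    ext; simp [Sg.lam_apply]; field_simp
  have gen : ∀ {r : G}, r⁻¹ = r → (∀ α β, r * F.t (α, β) * r = F.t ((α * β ^ 2 * s.σu β)⁻¹, β)) →
      r ∈ 𝐂[F.lt.H1] ∧ r ∈ 𝐍[F.H] ∧ F.H ≤ 𝐍[cj(r, F.lt.X)] := fun {r} ri rt => by
    have hH : r ∈ 𝐍[F.H] := mem_norm_of_cj_le (cj_le_iff.mpr (by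
      rintro _ ⟨⟨α, β⟩, rfl⟩
      rw [ri, rt]; exact F.t_mem_H _))
    refine ⟨mem_cent.mpr ?_, hH, ?_⟩
    · rintro _ ⟨c, rfl⟩
      have := rt (c * s.σu c)⁻¹ (s.σu c)
      rw [show ((c * s.σu c)⁻¹ * s.σu c ^ 2 * s.σu (s.σu c))⁻¹ = (c * s.σu c)⁻¹ by
        have h1 : s.σ (c : K) ≠ 0 := by simp
        ext; simp; field_simp] at this
      nth_rewrite 2 [← ri] at this
      exact (mul_inv_eq_iff_eq_mul.mp this).symm
    · rw [← cj_norm, ← cj_of_norm hH]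
      exact cj_mono _ (by rintro _ ⟨⟨α, β⟩, rfl⟩; exact (h.acts α β).norm_X)
  obtain ⟨rD, rH, rX⟩ := gen ri rt
  obtain ⟨rD', rH', rX'⟩ := gen ri' rt'
  have τ1 : F.lt.τ ≠ 1 := fun e => by simpa [e] using h2.toOC.orderOf_τ
  have ττ : F.lt.τ * F.lt.τ = 1 := by rw [← pow_two, ← h2.toOC.orderOf_τ, pow_orderOf_eq_one]
  have key : cj(r, F.lt.X) = cj(r', F.lt.X) := by
    by_contra hne
    have ha := conj_mem_cj (g := r) F.lt.τ_mem_X
    have hb := conj_mem_cj (g := r') F.lt.τ_mem_X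
    have τD : F.lt.τ ∈ 𝐂[F.lt.H1] := h.w4_mem 0 1
    have aD := mul_mem (mul_mem rD τD) (inv_mem rD)
    have bD := mul_mem (mul_mem rD' τD) (inv_mem rD')
    have aa : r * F.lt.τ * r⁻¹ * (r * F.lt.τ * r⁻¹) = 1 := by rw [conj_mul, ττ]; simp
    have bb : r' * F.lt.τ * r'⁻¹ * (r' * F.lt.τ * r'⁻¹) = 1 := by rw [conj_mul, ττ]; simp
    have a1 : r * F.lt.τ * r⁻¹ ≠ 1 := by simpa [mul_eq_one_iff_eq_inv] using τ1
    have b1 : r' * F.lt.τ * r'⁻¹ ≠ 1 := by simpa [mul_eq_one_iff_eq_inv] using τ1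
    generalize r * F.lt.τ * r⁻¹ = a at *
    generalize r' * F.lt.τ * r'⁻¹ = b at *
    have cn : ∀ {z a d : G}, a ∈ cj(d, F.lt.X) → a ≠ 1 → z * a = a * z → z ∈ 𝐍[cj(d, F.lt.X)] :=
      fun {z a d} ha a1 e => by
        rw [← cj_eq_iff, cj_cj]
        refine h2.ti2 ?_ ha a1
        have := conj_mem_cj (g := z) ha
        rwa [e, mul_inv_cancel_right, cj_cj] at this
    rcases Nat.even_or_odd' (orderOf (a * b)) with ⟨k, hk | hk⟩
    · have hz : (a * b) ^ k * (a * b) ^ k = 1 := by rw [← pow_add, ← two_mul, ← hk, pow_orderOf_eq_one]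
      have z1 : (a * b) ^ k ≠ 1 := pow_ne_one_of_lt_orderOf (by have := orderOf_pos (a * b); omega)
        (by have := orderOf_pos (a * b); omega)
      have ai : a⁻¹ = a := inv_eq_of_mul_eq_one_right aa
      have bi : b⁻¹ = b := inv_eq_of_mul_eq_one_right bb
      have za : (a * b) ^ k * a = a * (a * b) ^ k := by
        have : SemiconjBy a (a * b)⁻¹ (a * b) := by simp [SemiconjBy, ai, bi, mul_assoc]
        have := this.pow_right k
        rw [inv_pow, inv_eq_of_mul_eq_one_right hz] at this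
        exact this.symm
      have zb : (a * b) ^ k * b = b * (a * b) ^ k := by
        have c1 : Commute ((a * b) ^ k) (a * (a * b)) := Commute.mul_right za (Commute.pow_self _ k)
        rwa [← mul_assoc, aa, one_mul] at c1
      have zD := pow_mem (mul_mem aD bD) k
      exact hne (h2.ti2 (h.inv_mem_cj h2 hq rD zD (cn ha a1 za) hz) (h.inv_mem_cj h2 hq rD' zD (cn hb b1 zb) hz) z1)
    obtain ⟨i, hi⟩ := dihedral_odd aa bb (k := k) (by rw [← hk, pow_orderOf_eq_one])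
    have iD := pow_mem (mul_mem aD bD) i
    have hv := conj_mem_cj (g := (a * b) ^ i) ha
    rw [cj_cj] at hv
    have vD := mul_mem (mul_mem iD aD) (inv_mem iD)
    have vv : (a * b) ^ i * a * ((a * b) ^ i)⁻¹ * ((a * b) ^ i * a * ((a * b) ^ i)⁻¹) = 1 := by
      rw [conj_mul, aa]; simp
    have v1 : (a * b) ^ i * a * ((a * b) ^ i)⁻¹ ≠ 1 := by simpa [mul_eq_one_iff_eq_inv] using a1
    have dD := mul_mem iD rD
    generalize (a * b) ^ i * a * ((a * b) ^ i)⁻¹ = v at *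
    have vi : v⁻¹ = v := inv_eq_of_mul_eq_one_right vv
    have v2 : cj(v, cj(r, F.lt.X)) = cj(r', F.lt.X) := by
      have := conj_mem_cj (g := v) ha
      rw [vi, hi, cj_cj] at this
      rw [cj_cj]; exact h2.ti2 this hb b1
    have v3 : cj(v, cj(r', F.lt.X)) = cj(r, F.lt.X) := by rw [← v2, cj_cj, vv, cj_one]
    obtain ⟨α, hα⟩ := id hq
    have e1 := rt α 1
    have h3 : v * F.t ((α * 1 ^ 2 * s.σu 1)⁻¹, 1) * v⁻¹ ∈ F.H := by
      have tH := F.t_mem_H ((α * 1 ^ 2 * s.σu 1)⁻¹, 1)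
      have h4 := conj_mem_cj (g := r) (conj_mem_cj (g := v) (rX' tH))
      have h5 := conj_mem_cj (g := r) (conj_mem_cj (g := v) (rX tH))
      rw [cj_norm, cj_norm, v3, cj_cj, rr, cj_one] at h4
      rw [cj_norm, cj_norm, v2, cj_cj] at h5
      have h6 := h.stab2 h2 hq (mul_mem rD rD') (fun e => hne ?_) ?_
        (mul_mem (mul_mem rD (mul_mem (mul_mem vD (t_mem _)) (inv_mem vD))) (inv_mem rD)) h4 h5
      · have := conj_mem_of_norm' rH h6
        simpa [mul_assoc] using this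
      · rw [← cj_eq_cj (g := r), cj_cj, cj_cj, rr, cj_one, e]
      · rw [← cj_cj, ← cj_norm, ← cj_of_norm rH]; exact cj_mono _ rX'
    obtain ⟨⟨α', β'⟩, e2⟩ := h3
    rw [vi] at e2
    have l2 := h.lam_inv h2 hq dD hv v1 vv e2.symm
    have l3 := h.lam_eq h2 hq (mul_mem (mul_mem rD' vD) rD) (x := (α, 1)) (by
      rw [← cj_eq_iff, ← cj_cj, ← cj_cj, v2, cj_cj, rr', cj_one]) (by
      rw [← rt', e2, ← e1]; simp [ri, ri', vi, mul_assoc])
    rw [la, l2, la, inv_inv, inv_eq_iff_mul_eq_one, ← pow_two] at l3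
    exact hα (s.eq_one_of_wt' 2 1 (by norm_num) (by
      simpa [Sg.lam_apply] using congrArg Units.val (Sg.eq_one_of_sq l3)))
  have w8 : r' * r = (F.n * F.m) ^ 8 := by
    rw [hr, hr', mul_assoc, f1, ← pow_add]
  obtain ⟨a, v, ⟨α, β⟩, e⟩ := h.stab h2 hq (mul_mem rD' rD) (by rw [← cj_eq_iff, ← cj_cj, key, cj_cj, rr', cj_one])
  obtain ⟨c, hc⟩ := hq
  have h3 : r' * r * F.t (c, 1) = F.t (c, 1) * (r' * r) := by
    have e1 := rt c 1
    have e2 := rt' c 1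
    rw [← e1] at e2
    clear_value r r'
    calc _ = r' * (r * F.t (c, 1) * (r * (r' * r') * r)) := by rw [rr', mul_one, rr, mul_one, mul_assoc]
      _ = r' * (r * F.t (c, 1) * r) * r' * (r' * r) := by simp only [mul_assoc]
      _ = r' * r' * F.t (c, 1) * (r' * r') * (r' * r) := by rw [← e2]; simp only [mul_assoc]
      _ = _ := by rw [rr', one_mul, mul_one]
  have h4 : F.lt.u (w4 a v) = 1 := by
    have c' : F.t (α, β) * F.t (c, 1) = F.t (c, 1) * F.t (α, β) := by rw [← map_mul, ← map_mul, mul_comm]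
    rw [e, mul_assoc, c', ← mul_assoc, ← mul_assoc, mul_left_inj, eq_comm, ← mul_inv_eq_iff_eq_mul, (h.acts c 1).u,
      h2.toOC.u_inj] at h3
    have := mem_U8_of_dl hc h3
    rw [show (w4 a v : SG s) = 1 by ext <;> simp_all, map_one]
  rw [h4, one_mul, w8] at e
  have i1 : F.n * (F.n * F.m) ^ 8 * F.n * (F.n * F.m) ^ 8 = 1 := by
    simp only [pow_succ, pow_zero, one_mul, mul_assoc, f1, f2, nn, h.mm]
  have i2 : F.m * (F.n * F.m) ^ 8 * F.m * (F.n * F.m) ^ 8 = 1 := by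
    simp only [pow_succ, pow_zero, one_mul, mul_assoc, f1, f2, nn, h.mm]
  rw [e, h.nt, ← map_mul, ← map_one F.t] at i1
  rw [e, h.mt, ← map_mul, ← map_one F.t] at i2
  have j1 := congrArg Units.val (congrArg Prod.fst (h.t_inj h2.inj i1))
  have j2 := congrArg Units.val (congrArg Prod.snd (h.t_inj h2.inj i2))
  simp only [Prod.mk_mul_mk, Units.val_mul, Units.val_pow_eq_pow_val, Sg.coe_σu, Prod.fst_one, Prod.snd_one,
    Units.val_one] at j1 j2
  have hβ : β⁻¹ ^ 2 * s.σu β = 1 := by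
    ext
    simp only [Units.val_mul, Units.val_pow_eq_pow_val, Units.val_inv_eq_inv_val, Sg.coe_σu, Units.val_one]
    field_simp
    linear_combination (β : K) ^ 2 * j1 - s.σ β * ((α : K) * β * β + 1) * j2
  have hβ' : β = 1 := s.eq_one_of_wt (i := -2) (j := 1) (by norm_num) (by simpa using hβ)
  subst hβ'
  have hα : α = 1 := Units.ext (by simpa using j2)
  exact ⟨h, by rw [e, hα]; exact map_one _⟩

end RF0

end Cfsg.Agent.Og
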