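import Mathlib
import Cfsg.Agent.Og.KitG
import Cfsg.Agent.Og.BN
import Cfsg.Prelude.Def_CaseTheorems

/-! From the hypotheses of the statements to letters. -/

set_option autoImplicit false

namespace Cfsg.Agent.Og

open Cfsg.Agent.Loc.Mss Subgroup SG

namespace K1

theorem le_of_odd {G : Type*} [Group G] {C M P : Subgroup G} (hn : (C.subgroupOf M).Normal)
    (ho : Odd (C.relIndex M)) (hP : IsPGroup 2 P) (hM : P ≤ M) : P ≤ C := by
  intro x hx
  obtain ⟨k, hk⟩ := pg_iff.1 hP x hx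
  have h1 : x ^ C.relIndex M ∈ C := (C.subgroupOf M).pow_index_mem ⟨x, hM hx⟩
  obtain ⟨m, hm⟩ := exists_pow_eq_self_of_coprime (x := x) (n := C.relIndex M)
    (Nat.Coprime.coprime_dvd_right (orderOf_dvd_of_pow_eq_one hk)
      ((Nat.coprime_two_right.2 ho).pow_right k))
  exact hm ▸ pow_mem h1 m

variable {K : Type*} [Field K] [CharP K 2] {s : Sg K} {Γ : Type*} [Group Γ]

/-- The letters as elements of `C`. -/
def res (L : Lt s Γ) : Lt s L.C :=
  ⟨L.u.codRestrict _ L.u_mem_C, L.h.codRestrict _ L.h_mem_C, ⟨L.n, L.n_mem_C⟩⟩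

theorem res_C (L : Lt s Γ) : (res L).C = ⊤ := by
  refine map_injective L.C.subtype_injective ?_
  rw [← Lt.map_C, ← MonoidHom.range_eq_map, range_subtype]
  rfl

theorem oc_res {L : Lt s Γ} (h : OC L) : OC (res L) where
  nn := Subtype.ext h.nn
  nu p h1 h2 := Subtype.ext (h.nu p h1 h2)
  hu c p := Subtype.ext (h.hu c p)
  nh c := Subtype.ext (h.nh c)
  r1 a v N e := Subtype.ext (h.r1 a v N e)
  inj _ _ e := h.inj (congrArg Subtype.val e)

theorem exists_conj [Finite K] [Finite Γ] {F : Ft s Γ} (hF : RF F) (hi : Function.Injective F.u)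
    (ht : F.G0 = ⊤) (U : Sylow 2 Γ) {z : Γ} (hz : z ≠ 1) (hzU : z ∈ (U : Subgroup Γ))
    (hzc : ∀ u ∈ (U : Subgroup Γ), u * z = z * u) :
    ∃ x : Γ, cj(x, F.lt.C) = centralizer ({z} : Set Γ) := by
  have h : OC F.lt := ⟨hF.rc, hi⟩
  obtain ⟨g, -, e⟩ := (Syl.of_sylow U).conj_eq (ht ▸ hF.syl hi)
  have h1 : g * z * g⁻¹ ∈ F.lt.X := by
    rw [← h.cent_S, ← e, ← cj_cent, ← cj_inf]
    exact conj_mem_cj ⟨hzU, mem_cent.2 hzc⟩
  obtain ⟨a, ha, ea⟩ := KitG.exists_X h1 fun e => hz (conj_eq_one_iff.1 e)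
  obtain ⟨α, hα⟩ := s.exists_wt' 2 1 (by norm_num) ha
  have e1 : F.t (α, 1) * F.lt.τ * (F.t (α, 1))⁻¹ = g * z * g⁻¹ := by
    rw [← ea]
    refine (hF.tu α 1 _).trans (congrArg F.u ?_)
    ext <;> simp [← hα]
  refine ⟨g⁻¹ * F.t (α, 1), ?_⟩
  rw [← hF.cent_τ hi, ht, top_inf_eq, KitG.cj_c1, c1_eq]
  congr 2
  calc g⁻¹ * F.t (α, 1) * F.lt.τ * (g⁻¹ * F.t (α, 1))⁻¹
      = g⁻¹ * (F.t (α, 1) * F.lt.τ * (F.t (α, 1))⁻¹) * g := by group
    _ = z := by rw [e1]; group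

end K1

/-- From the hypotheses of the statements to letters in `G`; `Γ` is the model. -/
theorem exists_st {K : Type*} [Field K] [CharP K 2] [Finite K] {s : Sg K} {Γ : Type*} [Group Γ] [Finite Γ]
    {F : Ft s Γ} (hF : RF F) (hi : Function.Injective F.u) (ht : F.G0 = ⊤)
    {G : Type*} [Group G] [Finite G] (τ : G) (hτ : orderOf τ = 2) (S : Sylow 2 G) (hτS : τ ∈ (S : Subgroup G))
    (hτc : ∀ s ∈ (S : Subgroup G), s * τ = τ * s)
    (U : Sylow 2 Γ) (z : Γ) (hz : orderOf z = 2) (hzU : z ∈ (U : Subgroup Γ))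
    (hzc : ∀ u ∈ (U : Subgroup Γ), u * z = z * u)
    (C : Subgroup G) (hCle : C ≤ Subgroup.centralizer ({τ} : Set G))
    (hCn : (C.subgroupOf (Subgroup.centralizer ({τ} : Set G))).Normal)
    (hρ : Odd (C.relIndex (Subgroup.centralizer ({τ} : Set G))))
    (e : ↥C ≃* ↥(Subgroup.centralizer ({z} : Set Γ)))
    (hO : Cfsg.oddCore ↥(Subgroup.centralizer ({τ} : Set G)) = ⊥) :
    ∃ L : Lt s G, St L ∧ L.C = C ∧ L.τ = τ := by
  obtain ⟨x, hx⟩ := K1.exists_conj hF hi ht U (fun e => by simp [e] at hz) hzU hzc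
  let e1 : F.lt.C ≃* C :=
    ((F.lt.C.equivMapOfInjective _ (cj_inj x)).trans (MulEquiv.subgroupCongr hx)).trans e.symm
  let f : F.lt.C →* G := C.subtype.comp e1.toMonoidHom
  have h1 : OC ((K1.res F.lt).map f) :=
    (K1.oc_res ⟨hF.rc, hi⟩).map (C.subtype_injective.comp e1.injective)
  have hC : ((K1.res F.lt).map f).C = C := by
    rw [Lt.map_C, K1.res_C, ← map_map, map_top_of_surjective _ e1.surjective,
      ← MonoidHom.range_eq_map, range_subtype]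
  have hSC : (S : Subgroup G) ≤ C := K1.le_of_odd hCn hρ S.isPGroup'
    fun g hg => mem_centralizer_singleton_iff.2 (hτc g hg)
  have hX : τ ∈ ((K1.res F.lt).map f).X := by
    rw [← h1.cent_C, hC]
    exact ⟨hSC hτS, mem_cent.2 fun c hc => mem_centralizer_singleton_iff.1 (hCle hc)⟩
  obtain ⟨α, hα⟩ := Lt.exists_tw _ hX fun e => by simp [e] at hτ
  have h2 := h1.tw α
  have hC2 := (Lt.tw_C _ α).trans hC
  refine ⟨_, ⟨h2, ?_, ?_, ?_⟩, hC2, hα⟩
  · obtain ⟨g, -, hg⟩ := h2.syl_C.conj_le S.isPGroup' (hC2 ▸ hSC)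
    exact (Syl.of_sylow S).of_card_le h2.toRC.pg_S le_top ((card_cj _ g).ge.trans (card_le_of_le hg))
  · rw [hα, hC2]
    exact (normal_subgroupOf_iff_le_normalizer hCle).1 hCn
  · rw [hα]
    intro A hA hn ho
    exact le_bot_iff.1 ((GT.le_pPrimeCoreOf hA hn (Nat.coprime_two_right.2 ho)).trans
      (GT.pPrimeCoreOf_eq_bot_iff.2 hO).le)

end Cfsg.Agent.Og
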