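import Mathlib
import Cfsg.Agent.Chev.FieldMap
import Cfsg.Agent.Cl.AutField
import Cfsg.Agent.Chev.F4TwFix
import Cfsg.Agent.S1068

/-! The large Ree group over any field with two elements. -/

set_option autoImplicit false

namespace Cfsg.Agent.Og

open Cfsg Subgroup Cfsg.Lie Cfsg.Lie.ChevalleyDatum Cfsg.Agent.Chev

theorem two_equiv {K : Type*} [Field K] [Fintype K] (hK : Fintype.card K = 2 ^ (2 * 0 + 1)) :
    Nonempty (↥(twistedF4 (ZMod 2) 1) ≃* ↥(twistedF4 K (2 ^ 0))) := by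
  haveI := F4T.charP_of_card hK
  have zp : ∀ (m : ℕ) (t : ZMod 2), ZMod.castHom dvd_rfl K t ^ 2 ^ m = ZMod.castHom dvd_rfl K t :=
    fun m t => by rw [← map_pow, ZMod.pow_card_pow]
  have h2 : ∀ m, twistedF4 (ZMod 2) 1 ≤ (twistedF4 K (2 ^ m)).comap
      (Cl.Aut.glMap _ (ZMod.castHom dvd_rfl K)) := by
    intro m
    refine (closure_le _).2 ?_
    rintro g ⟨_, ⟨t, rfl | rfl⟩ | ⟨t, u, rfl | rfl⟩, hg⟩
    iterate 2
      refine Subgroup.subset_closure ⟨_, .inl ⟨ZMod.castHom dvd_rfl K t, ?_⟩, by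
        rw [Cl.Aut.coe_glMap, hg, wordMat_map]⟩
      simp only [f4PairWord, zp]
      simp
    iterate 2
      refine Subgroup.subset_closure ⟨_, .inr ⟨ZMod.castHom dvd_rfl K t, ZMod.castHom dvd_rfl K u, ?_⟩, by
        rw [Cl.Aut.coe_glMap, hg, wordMat_map]⟩
      simp only [b2ClassWord, pow_succ, mul_comm 2, pow_mul, zp]
      simp
  let f : twistedF4 (ZMod 2) 1 →* twistedF4 K (2 ^ 0) :=
    ((Cl.Aut.glMap _ (ZMod.castHom dvd_rfl K)).comp (Subgroup.subtype _)).codRestrict _ fun g => h2 0 g.2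
  have h3 : Function.Injective f := fun a b e =>
    Subtype.ext (Cl.Aut.glMap_injective _ (congrArg Subtype.val e))
  have h4 : Nat.card (twistedF4 (ZMod 2) 1) = Nat.card (twistedF4 K (2 ^ 0)) :=
    (S1068.result (K := ZMod 2) (m := 0) (by simp)).trans (S1068.result hK).symm
  exact ⟨MulEquiv.ofBijective f (h3.bijective_of_nat_card_le h4.ge)⟩

end Cfsg.Agent.Og
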